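import Cfsg.Agent.Lib.PLocal.PMin
import Cfsg.Agent.Lib.Comp.Rel
import Cfsg.Agent.Lib.Coprime.Nilpotent

/-! Isolated `p`-minimal subgroups: abstract set-up and the case of trivial `p`-core. -/

set_option autoImplicit false
set_option linter.unusedSectionVars false

namespace Cfsg.Lib.IsoP

open Subgroup Cfsg.Lib.BG Cfsg.Lib.Core Cfsg.Lib.Comp
open scoped Cfsg.Lib.Transfer commutatorElement

variable {G : Type*} [Group G] [Finite G] {p : ℕ} [hp : Fact p.Prime]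

/-- The abstract properties of an isolated `p`-minimal subgroup `P = X S`. -/
structure Su (p : ℕ) (S L X Q : Subgroup G) : Prop where
  pS : IsPGroup p S
  SL : S ≤ L
  QS : Q ≤ S
  LQ : L ≤ 𝐍(Q)
  SX : S ≤ 𝐍(X)
  kp1 : ∀ H : Subgroup G, S ≤ 𝐍(H) → H ≤ L ∨ X ≤ H
  kp2 : ∀ H : Subgroup G, S ≤ H → H ≤ (H ⊓ L) ⊔ X
  XL : ¬ X ≤ L
  XQ : X ≤ ⁅X, Q⁆

theorem top_norm (N : Subgroup G) [N.Normal] (A : Subgroup G) : A ≤ 𝐍(N) :=
  le_normalizer_of_normal

theorem normal_of_top {N : Subgroup G} (h : ⊤ ≤ 𝐍(N)) : N.Normal :=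
  normalizer_eq_top_iff.1 (top_le_iff.1 h)

namespace Su

variable {S L X Q : Subgroup G}

theorem map (h : Su p S L X Q) (O : Subgroup G) [O.Normal] (hO : O ≤ S) :
    Su p (S.map (QuotientGroup.mk' O)) (L.map (QuotientGroup.mk' O)) (X.map (QuotientGroup.mk' O))
      (Q.map (QuotientGroup.mk' O)) where
  pS := h.pS.map _
  SL := map_mono h.SL
  QS := map_mono h.QS
  LQ := map_norm _ h.LQ
  SX := map_norm _ h.SX
  kp1 H hH := by
    have e : (H.comap (QuotientGroup.mk' O)).map (QuotientGroup.mk' O) = H :=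
      map_comap_eq_self_of_surjective (QuotientGroup.mk'_surjective O) H
    rcases h.kp1 (H.comap (QuotientGroup.mk' O))
      ((map_le_iff_le_comap.1 hH).trans (le_normalizer_comap _)) with h1 | h1
    · exact Or.inl (e ▸ map_mono h1)
    · exact Or.inr (e ▸ map_mono h1)
  kp2 H hH := by
    have e : (H.comap (QuotientGroup.mk' O)).map (QuotientGroup.mk' O) = H :=
      map_comap_eq_self_of_surjective (QuotientGroup.mk'_surjective O) H
    have h1 := map_mono (f := QuotientGroup.mk' O) (h.kp2 _ (map_le_iff_le_comap.1 hH))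
    rw [e, Subgroup.map_sup] at h1
    refine h1.trans (sup_le_sup_right (le_inf ?_ (map_mono inf_le_right)) _)
    exact (map_mono inf_le_left).trans e.le
  XL h1 := by
    rw [map_mk'_le_map_mk'_iff, sup_eq_left.2 (hO.trans h.SL)] at h1
    exact h.XL h1
  XQ := by rw [← map_commutator]; exact map_mono h.XQ

variable (h : Su p S L X Q)
include h

theorem SQ : S ≤ 𝐍(Q) := h.SL.trans h.LQ

theorem X_ne : X ≠ ⊥ := fun e => h.XL (e ▸ bot_le)

theorem not_cent : ¬ X ≤ 𝐂(Q) := fun e =>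
  h.X_ne (eq_bot_mono (comm_eq_bot_iff.2 e) h.XQ)

theorem sup_top : normalClosure (X : Set G) ⊔ L = ⊤ :=
  top_le_iff.1 ((h.kp2 ⊤ le_top).trans (sup_le (inf_le_right.trans le_sup_right)
    (le_normalClosure.trans le_sup_left)))

theorem Y_le {N : Subgroup G} [N.Normal] (hN : X ≤ N) : normalClosure (X : Set G) ≤ N :=
  normalClosure_le_normal hN

theorem Y_le_comm : normalClosure (X : Set G) ≤ ⁅normalClosure (X : Set G), Q⁆ := by
  have : (⁅normalClosure (X : Set G), Q⁆).Normal := normal_of_top (by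
    rw [← h.sup_top]
    exact sup_le (left_norm_comm _ _) (norm_comm (top_norm _ _) h.LQ))
  exact h.Y_le (h.XQ.trans (commutator_mono le_normalClosure le_rfl))

variable (h0 : pCore p G = ⊥)
include h0

theorem cent_of_sn {N : Subgroup G} (hN : N.IsSubnormal) (hNL : N ≤ L) (hQ : Q ≤ 𝐍(N)) :
    N ≤ 𝐂(Q) := by
  refine cent_of_norm_of_disjoint (hNL.trans h.LQ) hQ ?_
  have h1 : SubnormalIn (N ⊓ Q) ⊤ :=
    (SubnormalIn.of_le_normalizer inf_le_left (norm_inf (le_norm N) (hNL.trans h.LQ))).trans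
      (subnormalIn_top.2 hN)
  have h2 := Loc.le_core_of_subnormal (p := p) le_top h1.isSubnormal_subgroupOf
    (pgroup_of_le h.pS (inf_le_right.trans h.QS))
  rw [Loc.core_top, h0] at h2
  exact le_bot_iff.1 h2

theorem Y_cent {N : Subgroup G} [hN : N.Normal] (hNL : N ≤ L) :
    normalClosure (X : Set G) ≤ 𝐂(N) := by
  have h1 : Q ≤ 𝐂(N) := cent_symm (h.cent_of_sn h0 hN.isSubnormal hNL (top_norm _ _))
  have : (𝐂(N)).Normal := inferInstance
  exact h.Y_le (h.XQ.trans ((commutator_mono le_rfl h1).trans (comm_le_right (top_norm _ _))))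

theorem Y_le_gF : normalClosure (X : Set G) ≤ generalizedFittingSubgroup G := by
  rcases h.kp1 (generalizedFittingSubgroup G) (top_norm _ _) with h1 | h1
  · exfalso
    have h2 := h.Y_cent h0 h1
    have h3 := cent_gF_le (⊤ : Subgroup G)
    have h4 := Fitting_le_gF (⊤ : Subgroup G)
    rw [gF_top] at h3 h4
    exact h.XL (le_normalClosure.trans ((le_inf le_top h2).trans (h3.trans (h4.trans h1))))
  · exact h.Y_le h1

omit h0 in
theorem tgroup (hY : ¬ p ∣ Nat.card (normalClosure (X : Set G))) :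
    ∃ t : ℕ, t.Prime ∧ t ≠ p ∧ IsPGroup t (normalClosure (X : Set G)) := by
  set Y := normalClosure (X : Set G) with hYd
  have hXY : X ≤ Y := le_normalClosure
  obtain ⟨t, ht, htX⟩ := Nat.exists_prime_and_dvd (card_ne_one h.X_ne)
  have htp : t ≠ p := fun e => hY (e ▸ htX.trans (card_dvd hXY))
  have hcop : (Nat.card S).Coprime (Nat.card Y) := by
    obtain ⟨k, hk⟩ := IsPGroup.iff_card.1 h.pS
    rw [hk]
    exact Nat.Coprime.pow_left _ ((Nat.Prime.coprime_iff_not_dvd hp.out).2 hY)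
  have hD : Y ⊓ L ≤ 𝐂(Q) := by
    refine cent_of_norm_of_disjoint (inf_le_right.trans h.LQ)
      (norm_inf (top_norm _ _) (le_norm_of_le (h.QS.trans h.SL))) ?_
    exact disjoint_of_coprime (coprime_mono hcop.symm inf_le_left h.QS)
  have := Fact.mk ht
  obtain ⟨R, hRY, hR, hRi, hSR⟩ := Coprime.exists_invariant_sylowIn t (top_norm Y S) hcop
    (Or.inl (pgroup_sol h.pS))
  have hc : (R.relIndex Y).Coprime ((𝐂(Q)).relIndex Y) := by
    refine Nat.coprime_of_dvd' fun r hr h1 h2 => ?_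
    exfalso
    have := Fact.mk hr
    obtain ⟨R', hRY', hR', hRi', hSR'⟩ := Coprime.exists_invariant_sylowIn r (top_norm Y S) hcop
      (Or.inl (pgroup_sol h.pS))
    rcases h.kp1 R' hSR' with h3 | h3
    · exact hRi' (h2.trans (relIndex_dvd_left ((le_inf hRY' h3).trans hD) Y))
    · have e := pgroup_eq_of_dvd hR' ht (htX.trans (card_dvd h3))
      exact hRi (e ▸ h1)
  have h1 : ⁅Y, Q⁆ ≤ ⁅R, Q⁆ := Coprime.commutator_le_of_subset_mul_centralizer fun k hk => by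
    obtain ⟨x, hx, y, hy, rfl⟩ := Coprime.exists_mul_of_coprime_relIndex hRY hc hk
    exact ⟨x, hx, by simpa using hy⟩
  exact ⟨t, ht, htp, pgroup_of_le hR
    (h.Y_le_comm.trans (h1.trans (comm_le_left (h.QS.trans hSR))))⟩

theorem der_cent (hs : Group.IsSolvable (normalClosure (X : Set G))) :
    normalClosure (X : Set G) ≤ 𝐂(⁅normalClosure (X : Set G), normalClosure (X : Set G)⁆) := by
  set Y := normalClosure (X : Set G) with hYd
  rcases h.kp1 ⁅Y, Y⁆ (top_norm _ _) with h1 | h1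
  · exact h.Y_cent h0 h1
  · exfalso
    have h2 : Y ≤ ⁅Y, Y⁆ := h.Y_le h1
    have h3 : Y ≠ ⊥ := ne_bot_mono h.X_ne le_normalClosure
    have : Nontrivial Y := (nontrivial_iff_ne_bot Y).2 h3
    have h4 := Group.IsSolvable.commutator_lt_top_of_nontrivial Y
    apply h4.ne
    apply map_injective Y.subtype_injective
    rw [_root_.commutator_def, map_commutator, ← MonoidHom.range_eq_map, range_subtype]
    exact le_antisymm (der_le Y) h2

theorem X_eq (hY : ¬ p ∣ Nat.card (normalClosure (X : Set G))) :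
    X = normalClosure (X : Set G) := by
  obtain ⟨t, ht, -, hT⟩ := h.tgroup hY
  have := Fact.mk ht
  have hc := h.der_cent h0 (pgroup_sol hT)
  set Y := normalClosure (X : Set G) with hYd
  have hXY : X ≤ Y := le_normalClosure
  have hUY : X ⊔ ⁅Y, Y⁆ ≤ Y := sup_le hXY (der_le Y)
  have hYU : Y ≤ 𝐍(X ⊔ ⁅Y, Y⁆) :=
    norm_of_comm_le ((comm_le_der hUY le_rfl).trans le_sup_right)
  have hSU : S ≤ 𝐍(X ⊔ ⁅Y, Y⁆) := norm_sup h.SX (top_norm _ _)
  have h1 : Y ⊔ S ≤ 𝐍((X ⊔ ⁅Y, Y⁆) ⊔ Q) := by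
    refine (h.kp2 _ le_sup_right).trans (sup_le ?_ (le_norm_of_le (le_sup_left.trans le_sup_left)))
    exact norm_sup (inf_le_left.trans (sup_le hYU hSU)) (inf_le_right.trans h.LQ)
  have hYQ : Q ⊓ Y = ⊥ := by
    obtain ⟨k, hk⟩ := IsPGroup.iff_card.1 (pgroup_of_le h.pS h.QS)
    apply disjoint_of_coprime
    rw [hk]
    exact Nat.Coprime.pow_left _ ((Nat.Prime.coprime_iff_not_dvd hp.out).2 hY)
  have h2 : ⁅Y, Q⁆ ≤ X ⊔ ⁅Y, Y⁆ := by
    have h3 : ⁅Y, Q⁆ ≤ ((X ⊔ ⁅Y, Y⁆) ⊔ Q) ⊓ Y :=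
      le_inf ((commutator_mono le_rfl le_sup_right).trans (comm_le_right (le_sup_left.trans h1)))
        (comm_le_left (top_norm _ _))
    rwa [modular_left hUY (h.QS.trans hSU), hYQ, sup_bot_eq] at h3
  have h3 : Y = X ⊔ ⁅Y, Y⁆ := le_antisymm (h.Y_le_comm.trans h2) hUY
  have h4 : ⁅Y, Y⁆ ≤ X := by
    have hZ : ⁅Y, Y⁆ ≤ 𝐂(Y) := cent_symm hc
    have e1 : ⁅X ⊔ ⁅Y, Y⁆, Y⁆ = ⁅X, Y⁆ :=
      Coprime.commutator_sup_of_le_centralizer (norm_of_cent (hZ.trans (cent_anti hXY))) hZ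
    have e2 : ⁅X ⊔ ⁅Y, Y⁆, X⁆ = ⁅X, X⁆ :=
      Coprime.commutator_sup_of_le_centralizer (norm_of_cent (hZ.trans (cent_anti hXY)))
        (hZ.trans (cent_anti hXY))
    rw [← h3] at e1 e2
    rw [e1, commutator_comm, e2]
    exact der_le X
  exact le_antisymm hXY (h3.le.trans (sup_le le_rfl h4))

theorem exists_cmp (hY : p ∣ Nat.card (normalClosure (X : Set G))) :
    ∃ K, Cmp K (normalClosure (X : Set G)) := by
  set Y := normalClosure (X : Set G) with hYd
  by_contra hne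
  have h1 : 𝐄((⊤ : Subgroup G)) ≤ 𝐂(Y) := layer_le_cent fun K hK =>
    (hK.le_or_cent le_top (top_norm _ _)).resolve_left fun e => hne ⟨K, hK.mono e le_top⟩
  have h2 : Y ≤ 𝐅((⊤ : Subgroup G)) := by
    rw [← gF_inf_cent_layer]
    exact le_inf (gF_top (G := G) ▸ h.Y_le_gF h0) (cent_symm h1)
  rw [fittingOf_top] at h2
  obtain ⟨A, hA, hAc⟩ := exists_card_eq_prime hp.out hY
  have h3 := le_pCore_of_le_fittingSubgroup (p := p) (hA.trans h2)
    (IsPGroup.of_card (n := 1) (by rw [hAc, pow_one]))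
  rw [h0] at h3
  exact ne_bot_of_prime (hAc ▸ hp.out) (le_bot_iff.1 h3)

theorem layer_eq {K : Subgroup G} (hK : Cmp K (normalClosure (X : Set G))) :
    𝐄(normalClosure (X : Set G)) = normalClosure (X : Set G) := by
  set Y := normalClosure (X : Set G) with hYd
  have : (𝐄(Y)).Normal := normal_of_top (norm_layer (top_norm _ _))
  rcases h.kp1 𝐄(Y) (top_norm _ _) with h1 | h1
  · exact absurd (cent_mono (h.Y_cent h0 h1) hK.le hK.le_layer) hK.not_cent
  · exact le_antisymm (layer_le_self Y) (h.Y_le h1)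

omit h h0 in
theorem norm_sSup {A : Subgroup G} {T : Set (Subgroup G)} (hT : ∀ a ∈ A, ∀ K ∈ T, a ⋆ K ∈ T) :
    A ≤ 𝐍(sSup T) := by
  have key : ∀ a ∈ A, a ⋆ sSup T ≤ sSup T := fun a ha =>
    map_le_iff_le_comap.2 (sSup_le fun K hK => map_le_iff_le_comap.1 (le_sSup (hT a ha K hK)))
  exact le_norm_iff.2 fun a ha x hx => key a ha ⟨x, hx, rfl⟩

theorem X_le_orbit {K : Subgroup G} (hK : Cmp K (normalClosure (X : Set G))) :
    X ≤ sSup {J | ∃ s ∈ S, J = s ⋆ K} := by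
  have hE := h.layer_eq h0 hK
  set Y := normalClosure (X : Set G) with hYd
  have hS : S ≤ 𝐍(sSup {J | ∃ s ∈ S, J = s ⋆ K}) := norm_sSup (by
    rintro a ha J ⟨s, hs, rfl⟩
    exact ⟨a * s, mul_mem ha hs, Transfer.conj_conj _ _ _⟩)
  refine (h.kp1 _ hS).resolve_left fun h1 => ?_
  have hYn : Y.IsSubnormal := (inferInstance : Y.Normal).isSubnormal
  have h2 : (sSup {J | ∃ s ∈ S, J = s ⋆ K}).IsSubnormal := isSubnormal_sSup (by
    rintro J ⟨s, hs, rfl⟩
    exact (hK.conj_norm (top_norm Y ⊤ (mem_top s))).sn.isSubnormal hYn)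
  have h3 := h.cent_of_sn h0 h2 h1 (h.QS.trans hS)
  have h4 : K ≤ 𝐂(Q) := le_trans (le_sSup (by exact ⟨1, one_mem _, (Transfer.conj_one K).symm⟩)) h3
  have hT : (sSup {J | Cmp J Y ∧ J ≤ 𝐂(Q)}).Normal := normal_of_top (by
    rw [← h.sup_top]
    refine sup_le (norm_sSup fun a ha J hJ => ?_) (norm_sSup fun a ha J hJ => ?_)
    · have : a ∈ 𝐍(J) := hJ.1.nml_layer.norm (hE.ge ha)
      rwa [conj_eq_of_norm this]
    · exact ⟨hJ.1.conj_norm (top_norm Y ⊤ (mem_top a)),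
        conj_le_of_norm hJ.2 (norm_cent h.LQ ha)⟩)
  rcases h.kp1 (sSup {J | Cmp J Y ∧ J ≤ 𝐂(Q)}) (top_norm _ _) with h5 | h5
  · exact hK.not_cent (cent_mono (h.Y_cent h0 h5) hK.le (le_sSup ⟨hK, h4⟩))
  · exact h.not_cent (h5.trans (sSup_le fun J hJ => hJ.2))

theorem trans {K₁ K₂ : Subgroup G} (h1 : Cmp K₁ (normalClosure (X : Set G)))
    (h2 : Cmp K₂ (normalClosure (X : Set G))) : ∃ s ∈ S, K₂ = s ⋆ K₁ := by
  have hE := h.layer_eq h0 h1
  have hX1 := h.X_le_orbit h0 h1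
  have hX2 := h.X_le_orbit h0 h2
  set Y := normalClosure (X : Set G) with hYd
  by_contra hne
  have key : ∀ {K J : Subgroup G}, Cmp K Y → Cmp J Y → (¬ ∃ s ∈ S, J = s ⋆ K) →
      sSup {J | ∃ s ∈ S, J = s ⋆ K} ≤ 𝐂(J) := fun {K J} hK hJ hn => sSup_le (by
    rintro _ ⟨s, hs, rfl⟩
    exact (hK.conj_norm (top_norm Y ⊤ (mem_top s))).cent_of_ne hJ fun e => hn ⟨s, hs, e.symm⟩)
  have h3 : 𝐄(Y) ≤ 𝐂(X) := layer_le_cent fun J hJ => cent_symm (by
    by_cases hn : ∃ s ∈ S, J = s ⋆ K₁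
    · refine hX2.trans (key h2 hJ ?_)
      rintro ⟨t, ht, e⟩
      obtain ⟨s, hs, e'⟩ := hn
      refine hne ⟨t⁻¹ * s, mul_mem (inv_mem ht) hs, ?_⟩
      rw [← Transfer.conj_conj, ← e', e, Transfer.conj_conj, inv_mul_cancel, Transfer.conj_one]
    · exact hX1.trans (key h1 hJ hn))
  rw [hE] at h3
  have h4 : Y ≤ 𝐂(Y) := h.Y_le (cent_symm h3)
  exact h1.not_cent (cent_mono h4 h1.le h1.le)

end Su

/-- McBride generation inside an overgroup `H` of `S`. -/
theorem gen {S H M : Subgroup G} (hS : IsPGroup p S) (hi : ¬ p ∣ S.index) (hSH : S ≤ H)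
    (hN : 𝐍(S) ⊓ H ≤ M) (hP : ∀ P, S ≤ P → P ≤ H → IsPMinimal p P → P ≤ M) : H ≤ M := by
  have hi' : ∀ {K : Subgroup G}, S ≤ K → ¬ p ∣ S.relIndex K := fun {K} hK e =>
    hi (e.trans (relIndex_dvd_index_of_le hK))
  have h1 : pElementClosure p H ≤ M := by
    refine (PLocal.pel_le_sup_pMin hS H hSH (hi' hSH)).trans
      (sup_le ((le_inf (le_norm S) hSH).trans hN) (sSup_le ?_))
    rintro P ⟨hPH, M', hM⟩
    exact hP P hM.leP hPH ((PLocal.isPMinimal_iff hM.leP hS hM.syl).mpr ⟨M', hM⟩)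
  intro g hg
  have hS' := Loc.le_pel hSH hS
  obtain ⟨n, hn, hng⟩ := Transfer.frattini_argument hS' hS (hi' hS') (Loc.le_normalizer_pel H) hg
  have : g = n⁻¹ * (n * g) := by simp
  rw [this]
  exact mul_mem (inv_mem (h1 hn)) (hN ⟨hng, mul_mem (Loc.pel_le p H hn) hg⟩)

theorem su_of {S P L : Subgroup G} (hS : IsPGroup p S) (hi : ¬ p ∣ S.index) (hSP : S ≤ P)
    (hP : IsPMinimal p P) (hNL : 𝐍(S) ≤ L)
    (hL : ∀ P', S ≤ P' → IsPMinimal p P' → P' ≠ P → P' ≤ L)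
    (hiso : ¬ pCoreOf p L ≤ pCoreOf p P) : Su p S L (pResidualOf p P) (pCoreOf p L) := by
  have hi' : ∀ {K : Subgroup G}, S ≤ K → ¬ p ∣ S.relIndex K := fun {K} hK e =>
    hi (e.trans (relIndex_dvd_index_of_le hK))
  obtain ⟨M, hM⟩ := (PLocal.isPMinimal_iff hSP hS (hi' hSP)).mp hP
  have hSL : S ≤ L := (le_norm S).trans hNL
  have hQS : pCoreOf p L ≤ S := Loc.core_le_of_not_dvd (hi' hSL)
  have hSX : S ≤ 𝐍(pResidualOf p P) := hSP.trans (Loc.le_normalizer_res p P)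
  have hSQ : S ≤ 𝐍(pCoreOf p L) := hSL.trans (Loc.le_normalizer_core p L)
  have key : ∀ H, S ≤ H → H ≤ L ∨ P ≤ H := fun H hH => by
    by_cases e : P ≤ H
    · exact Or.inr e
    · exact Or.inl (gen hS hi hH (inf_le_left.trans hNL) fun P' h1 h2 h3 =>
        hL P' h1 h3 fun e' => e (e' ▸ h2))
  refine ⟨hS, hSL, hQS, Loc.le_normalizer_core p L, hSX, fun H hH => ?_, fun H hH => ?_,
    fun h1 => ?_, ?_⟩
  · rcases key (S ⊔ H) le_sup_left with h1 | h1
    · exact Or.inl (le_sup_right.trans h1)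
    · refine Or.inr ((Loc.res_mono h1).trans ?_)
      rw [Loc.res_sup_of_isPGroup hS hH]
      exact Loc.res_le p H
  · refine gen hS hi hH ((le_inf inf_le_right (inf_le_left.trans hNL)).trans le_sup_left)
      fun P' h1 h2 h3 => ?_
    by_cases e : P' = P
    · rw [e, ← hM.res_sup]
      refine sup_le ?_ ((le_inf hH hSL).trans le_sup_left)
      rw [hM.res_sup]
      exact le_sup_right
    · exact (le_inf h2 (hL P' h1 h3 e)).trans le_sup_left
  · exact hiso (Loc.core_le_core (hM.res_sup.ge.trans (sup_le h1 hSL)) (hQS.trans hSP))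
  · have hc : ⁅pResidualOf p P, pCoreOf p L⁆ ≤ P := comm_le_of_le (Loc.res_le p P) (hQS.trans hSP)
    refine (hM.res_le_or_le hc (norm_comm hSX hSQ)).resolve_right fun h1 => hiso ?_
    have h2 := hM.inf_le_core (N := ⁅pResidualOf p P, pCoreOf p L⁆ ⊔ pCoreOf p L)
      (sup_le h1 (hQS.trans hM.le)) (by
        refine hM.res_sup.ge.trans (sup_le ?_ (norm_sup (norm_comm hSX hSQ) hSQ))
        rw [sup_comm, commutator_comm, commutator_comm (pCoreOf p L)]
        exact le_normalizer_sup_commutator _ _)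
    exact (le_inf le_sup_right hQS).trans h2

end Cfsg.Lib.IsoP
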