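import Cfsg.Agent.Lib.IsoP.A

/-! Isolated `p`-minimal subgroups: transport from `G / O_p(G)`. -/

set_option autoImplicit false
set_option linter.unusedSectionVars false

namespace Cfsg.Lib.IsoP

open Subgroup Cfsg.Lib.BG Cfsg.Lib.Core Cfsg.Lib.Comp
open scoped Cfsg.Lib.Transfer commutatorElement

variable {G : Type*} [Group G] [Finite G] {p : ℕ} [hp : Fact p.Prime]

theorem ker_eq (Y : Subgroup G) [Y.Normal] :
    ((QuotientGroup.mk' (pCore p G)).comp Y.subtype).ker = pCore p Y := by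
  rw [← MonoidHom.comap_ker, QuotientGroup.ker_mk']
  apply map_injective Y.subtype_injective
  rw [pCoreOf_eq_inf_of_normal, map_comap_eq, range_subtype, inf_comm]

theorem exists_emb (p : ℕ) [Fact p.Prime] (Y : Subgroup G) [Y.Normal] :
    ∃ φ : (Y ⧸ pCore p Y) →* G ⧸ pCore p G, Function.Injective φ ∧
      (⊤ : Subgroup _).map φ = Y.map (QuotientGroup.mk' (pCore p G)) ∧
      ∀ K : Subgroup (Y ⧸ pCore p Y), (K.comap (QuotientGroup.mk' (pCore p Y))).map Y.subtype =
        (K.map φ).comap (QuotientGroup.mk' (pCore p G)) ⊓ Y := by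
  let φ := QuotientGroup.lift (pCore p Y) ((QuotientGroup.mk' (pCore p G)).comp Y.subtype)
    (ker_eq Y).ge
  have hφ : Function.Injective φ := by
    rw [← MonoidHom.ker_eq_bot_iff, QuotientGroup.ker_lift, ker_eq, map_mk'_eq_bot_iff]
  refine ⟨φ, hφ, ?_, fun K => ?_⟩
  · rw [← Subgroup.map_top_of_surjective _ (QuotientGroup.mk'_surjective (pCore p Y)), map_map,
      QuotientGroup.lift_comp_mk', ← map_map, ← MonoidHom.range_eq_map, range_subtype]
  · ext g
    constructor
    · rintro ⟨y, hy, rfl⟩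
      exact ⟨⟨_, hy, rfl⟩, y.2⟩
    · rintro ⟨⟨k, hk, e⟩, hg⟩
      refine ⟨⟨g, hg⟩, ?_, rfl⟩
      have : k = QuotientGroup.mk' (pCore p Y) ⟨g, hg⟩ := hφ e
      rw [this] at hk
      exact hk

theorem conj_comap_inf {N Y : Subgroup G} [N.Normal] [Y.Normal] (K : Subgroup (G ⧸ N)) (s : G) :
    ((QuotientGroup.mk' N s) ⋆ K).comap (QuotientGroup.mk' N) ⊓ Y =
      s ⋆ (K.comap (QuotientGroup.mk' N) ⊓ Y) := by
  rw [Transfer.conj_inf, conj_eq_of_norm (top_norm Y ⊤ (mem_top s))]
  congr 1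
  ext x
  simp only [mem_comap, Transfer.mem_conj, map_mul, map_inv]

variable {S L P : Subgroup G}

theorem map_Y (X N : Subgroup G) [N.Normal] :
    normalClosure ((X.map (QuotientGroup.mk' N) : Subgroup _) : Set (G ⧸ N)) =
      (normalClosure (X : Set G)).map (QuotientGroup.mk' N) := by
  rw [map_normalClosure _ _ (QuotientGroup.mk'_surjective N), coe_map]

theorem eq_of_not_dvd {Q : Subgroup G} (h : Su p S L (pResidualOf p P) Q) (hO : pCore p G ≤ S)
    (hSP : S ≤ P)
    (hY : ¬ p ∣ Nat.card ((normalClosure (pResidualOf p P : Set G)).map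
      (QuotientGroup.mk' (pCore p G)))) :
    pResidualOf p P = normalClosure (pResidualOf p P : Set G) := by
  have h1 := (h.map _ hO).X_eq (pCore_quotient_pCore p G) (by rwa [map_Y])
  rw [map_Y] at h1
  set Y := normalClosure (pResidualOf p P : Set G) with hYd
  have h2 : Y ≤ P := by
    have := h1.ge
    rw [map_mk'_le_map_mk'_iff] at this
    exact this.trans (sup_le (Loc.res_le p P) (hO.trans hSP))
  have := Loc.res_normal p Y
  have h3 : Y ≤ pResidualOf p Y := normalClosure_le_normal (by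
    have := Loc.res_mono (p := p) (le_normalClosure (H := pResidualOf p P))
    rwa [Loc.res_res] at this)
  exact le_antisymm le_normalClosure (h3.trans (Loc.res_mono h2))

theorem main1 {Q : Subgroup G} (h : Su p S L (pResidualOf p P) Q) (hO : pCore p G ≤ S)
    (hSP : S ≤ P) (Y : Subgroup G) (hY : Y = normalClosure (pResidualOf p P : Set G)) :
    pResidualOf p P = Y ∨ (p ∣ Nat.card (Y ⧸ pCore p Y) ∧ layer (Y ⧸ pCore p Y) = ⊤ ∧
      ∀ K₁ K₂ : Subgroup (Y ⧸ pCore p Y), IsComponent K₁ → IsComponent K₂ →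
        ∃ s ∈ S, (K₂.comap (QuotientGroup.mk' (pCore p Y))).map Y.subtype =
          s ⋆ (K₁.comap (QuotientGroup.mk' (pCore p Y))).map Y.subtype) := by
  subst hY
  by_cases hd : p ∣ Nat.card ((normalClosure (pResidualOf p P : Set G)).map
      (QuotientGroup.mk' (pCore p G)))
  swap
  · exact Or.inl (eq_of_not_dvd h hO hSP hd)
  right
  have h' := h.map _ hO
  have h0 := pCore_quotient_pCore p G
  obtain ⟨φ, hφ, hr, hK⟩ := exists_emb p (normalClosure (pResidualOf p P : Set G))
  obtain ⟨J, hJ⟩ := h'.exists_cmp h0 (by rwa [map_Y])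
  have hE := h'.layer_eq h0 hJ
  rw [map_Y, ← hr] at hE
  refine ⟨?_, ?_, fun K₁ K₂ h1 h2 => ?_⟩
  · rwa [← hr, card_map_of_injective hφ, card_top] at hd
  · rw [map_layer_map_of_injective _ hφ, layer_top] at hE
    exact map_injective hφ hE
  · have hc : ∀ K, IsComponent K → Cmp (K.map φ) (normalClosure
        (((pResidualOf p P).map (QuotientGroup.mk' (pCore p G)) : Subgroup _) : Set (G ⧸ pCore p G))) :=
      fun K hK => by
        rw [map_Y, ← hr]
        refine (cmp_top.2 hK).map φ fun e => (cmp_top.2 hK).ne_bot ?_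
        rwa [(MonoidHom.ker_eq_bot_iff φ).2 hφ, le_bot_iff] at e
    obtain ⟨_, ⟨s, hs, rfl⟩, e⟩ := h'.trans h0 (hc K₁ h1) (hc K₂ h2)
    exact ⟨s, hs, by rw [hK, hK, e, conj_comap_inf]⟩

theorem main2 {Q : Subgroup G} (h : Su p S L (pResidualOf p P) Q) (hO : pCore p G ≤ S)
    (hSP : S ≤ P) (Y : Subgroup G) (hY : Y = normalClosure (pResidualOf p P : Set G))
    (hs : Group.IsSolvable Y) :
    pResidualOf p P = Y ∧ ∃ t : ℕ, t.Prime ∧ t ≠ p ∧ IsPGroup t (Y ⧸ pCore p Y) ∧
      ∃ _ : Group.IsNilpotent (Y ⧸ pCore p Y), Group.nilpotencyClass (Y ⧸ pCore p Y) ≤ 2 := by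
  subst hY
  have h' := h.map _ hO
  have h0 := pCore_quotient_pCore p G
  obtain ⟨φ, hφ, hr, -⟩ := exists_emb p (normalClosure (pResidualOf p P : Set G))
  have hs' : Group.IsSolvable (normalClosure
      (((pResidualOf p P).map (QuotientGroup.mk' (pCore p G)) : Subgroup _) : Set (G ⧸ pCore p G))) := by
    rw [map_Y]
    exact Group.isSolvable_of_surjective (MonoidHom.subgroupMap_surjective _ _)
  have hd : ¬ p ∣ Nat.card (normalClosure
      (((pResidualOf p P).map (QuotientGroup.mk' (pCore p G)) : Subgroup _) : Set (G ⧸ pCore p G))) :=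
    fun e => by
      obtain ⟨J, hJ⟩ := h'.exists_cmp h0 e
      exact hJ.not_sol hs' hJ.le
  obtain ⟨t, ht, htp, hT⟩ := h'.tgroup hd
  have hc := h'.der_cent h0 hs'
  rw [map_Y, ← hr] at hT hc
  refine ⟨eq_of_not_dvd h hO hSP (by rwa [← map_Y]), t, ht, htp, ?_, ?_⟩
  · exact (hT.of_equiv ((⊤ : Subgroup _).equivMapOfInjective φ hφ).symm).of_equiv topEquiv
  · have h1 : Subgroup.lowerCentralSeries (⊤ : Subgroup (normalClosure (pResidualOf p P : Set G) ⧸
        pCore p (normalClosure (pResidualOf p P : Set G)))) 2 = ⊥ := by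
      rw [← comm_eq_bot_iff', ← map_commutator, ← map_commutator,
        map_eq_bot_iff_of_injective _ hφ] at hc
      exact hc
    have h2 := Subgroup.nilpotent_iff_lowerCentralSeries.2 ⟨2, h1⟩
    exact ⟨h2, Subgroup.lowerCentralSeries_eq_bot_iff_nilpotencyClass_le.1 h1⟩

end Cfsg.Lib.IsoP
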